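import Mathlib.GroupTheory.Sylow
import Cfsg.Agent.H199.PslField
import Cfsg.Agent.LieRecognition.FieldSemilinear

/-!
# Field automorphisms of odd order (helper805, for S4311 + S3851)

* `exists_fix` : a finite field `F` has an automorphism `σ₀` of odd order `d` with fixed field `K`, `|F| = |K| ^ d`,
  such that the `2 ^ a`-th power of every automorphism is a power of `σ₀`;
* `exists_odd` : `x ^ d - 1 = c (x - 1)` with `c` odd (`x`, `d` odd);
* `image_sylow` : the image of a Sylow `2`-subgroup under an injective homomorphism with odd index ratio.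
-/

set_option autoImplicit false

namespace Cfsg.Agent.H805.RV

/-- The automorphisms of odd order of a finite field and their fixed field. -/
theorem exists_fix (F : Type*) [Field F] [Fintype F] :
    ∃ (σ₀ : F ≃+* F) (K : Subfield F) (a : ℕ), Odd (orderOf σ₀) ∧ (∀ x, x ∈ K ↔ σ₀ x = x) ∧
      Nat.card F = Nat.card K ^ orderOf σ₀ ∧ (∀ σ : F ≃+* F, σ ^ 2 ^ a ∈ Subgroup.zpowers σ₀) ∧
      ∀ σ ∈ Subgroup.zpowers σ₀, ∀ x ∈ K, σ x = x := by
  have : Finite (F ≃+* F) := DFunLike.finite _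
  have hc : IsCyclic (F ≃+* F) := Cfsg.Agent.LieRecognition.FieldSemilinear.isCyclic_ringAut F
  obtain ⟨γ, hγ⟩ := IsCyclic.exists_generator (α := F ≃+* F)
  obtain ⟨a, d, hd, ho⟩ := Nat.exists_eq_two_pow_mul_odd (n := orderOf γ) (orderOf_pos γ).ne'
  obtain ⟨K, hK, hcard⟩ := Cfsg.Agent.H199.PslField.card_fix (γ ^ 2 ^ a)
  have hod : orderOf (γ ^ 2 ^ a) = d := by
    rw [orderOf_pow_of_dvd (pow_ne_zero _ two_ne_zero) (ho ▸ dvd_mul_right _ _), ho]
    exact Nat.mul_div_cancel_left d (Nat.two_pow_pos a)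
  refine ⟨γ ^ 2 ^ a, K, a, by rw [hod]; exact hd, hK, hcard.symm, fun σ => ?_, fun σ hσ x hx => ?_⟩
  · obtain ⟨j, rfl⟩ := hγ σ
    refine ⟨j, ?_⟩
    show (γ ^ 2 ^ a) ^ j = (γ ^ j) ^ 2 ^ a
    rw [← zpow_natCast, ← zpow_natCast, ← zpow_mul, ← zpow_mul, mul_comm]
  · have h1 : Subgroup.zpowers (γ ^ 2 ^ a) ≤ MulAction.stabilizer (F ≃+* F) x := by
      rw [Subgroup.zpowers_le]
      exact (hK x).1 hx
    exact h1 hσ

theorem exists_odd {x d : ℕ} (hx : Odd x) (hd : Odd d) : ∃ c, Odd c ∧ x ^ d - 1 = c * (x - 1) := by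
  refine ⟨∑ i ∈ Finset.range d, x ^ i, ?_, ?_⟩
  · rw [Finset.odd_sum_iff_odd_card_odd]
    have : (Finset.range d).filter (fun i => Odd (x ^ i)) = Finset.range d :=
      Finset.filter_true_of_mem fun i _ => hx.pow
    rw [this, Finset.card_range]
    exact hd
  · have h1 : 1 ≤ x := hx.pos
    obtain ⟨w, rfl⟩ := Nat.exists_eq_add_of_le h1
    have h2 := geom_sum_mul_add w d
    rw [add_comm 1 w, ← h2]
    simp

/-- `x ^ (d k) - 1 = c (x ^ k - 1)` -/
theorem exists_odd' {x d : ℕ} (k : ℕ) (hx : Odd x) (hd : Odd d) : ∃ c, Odd c ∧ (x ^ d) ^ k - 1 = c * (x ^ k - 1) := by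
  obtain ⟨c, hc, h⟩ := exists_odd (x := x ^ k) hx.pow hd
  refine ⟨c, hc, ?_⟩
  rw [← h, ← pow_mul, ← pow_mul, mul_comm]

/-- `x ^ (d k) + 1 = c (x ^ k + 1)` -/
theorem exists_odd_add {x d : ℕ} (k : ℕ) (hx : Odd x) (hd : Odd d) : ∃ c, Odd c ∧ (x ^ d) ^ k + 1 = c * (x ^ k + 1) := by
  have h0 : (x ^ k + 1) ∣ ((x ^ k) ^ d + 1) := by
    have := Odd.nat_add_dvd_pow_add_pow (x ^ k) 1 hd
    rwa [one_pow] at this
  obtain ⟨c, hc⟩ := h0
  refine ⟨c, ?_, ?_⟩
  · -- compare with `x ^ (2 k)`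
    obtain ⟨c₁, hc₁, h1⟩ := exists_odd (x := x ^ k) hx.pow hd
    obtain ⟨c₂, hc₂, h2⟩ := exists_odd (x := (x ^ k) ^ 2) hx.pow.pow hd
    by_contra hne
    rw [Nat.not_odd_iff_even] at hne
    have hy : 1 ≤ x ^ k := (hx.pow (n := k)).pos
    have h3 : ∀ z : ℕ, 1 ≤ z → z ^ 2 - 1 = (z - 1) * (z + 1) := by
      intro z hz
      obtain ⟨w, rfl⟩ := Nat.exists_eq_add_of_le hz
      have : (1 + w) ^ 2 = w * (1 + w + 1) + 1 := by ring
      rw [this]
      simp
    rcases Nat.eq_or_lt_of_le hy with h4 | h4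
    · rw [← h4, one_pow] at hc
      have : c = 1 := by omega
      rw [this] at hne
      exact absurd hne (by decide)
    · have h5 : ((x ^ k) ^ 2) ^ d - 1 = ((x ^ k) ^ d - 1) * ((x ^ k) ^ d + 1) := by
        rw [← h3 _ (Nat.one_le_pow _ _ hy), ← pow_mul ((x ^ k)), ← pow_mul (x ^ k), mul_comm 2 d]
      rw [h5, h1, hc, h3 _ hy] at h2
      have h6 : c₂ = c₁ * c := by
        have h7 : 0 < (x ^ k - 1) * (x ^ k + 1) := Nat.mul_pos (by omega) (by omega)
        apply Nat.eq_of_mul_eq_mul_right h7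
        rw [← h2]
        ring
      rw [h6] at hc₂
      exact (Nat.not_odd_iff_even.2 (Even.mul_left hne c₁)) hc₂
  · rw [mul_comm c, ← hc, ← pow_mul, ← pow_mul, mul_comm k d]

/-- A product of such factors. -/
theorem exists_odd_prod {ι : Type*} (s : Finset ι) {f g : ι → ℕ} (h : ∀ i ∈ s, ∃ c, Odd c ∧ f i = c * g i) :
    ∃ c, Odd c ∧ ∏ i ∈ s, f i = c * ∏ i ∈ s, g i := by
  classical
  induction s using Finset.induction_on with
  | empty => exact ⟨1, odd_one, by simp⟩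
  | insert a s ha ih =>
    obtain ⟨c, hc, h1⟩ := ih fun i hi => h i (Finset.mem_insert_of_mem hi)
    obtain ⟨e, he, h2⟩ := h a (Finset.mem_insert_self a s)
    refine ⟨e * c, he.mul hc, ?_⟩
    rw [Finset.prod_insert ha, Finset.prod_insert ha, h1, h2]
    ring

/-- The image of a Sylow 2-subgroup under an injective homomorphism `f` with `|B| = c |A|`, `c` odd, followed by a
surjective one. -/
theorem image_sylow {A B C : Type*} [Group A] [Group B] [Group C] [Finite A] [Finite B] (f : A →* B)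
    (hf : Function.Injective f) {c : ℕ} (hc : Odd c) (hcard : Nat.card B = c * Nat.card A) (g : B →* C)
    (hg : Function.Surjective g) (P : Sylow 2 A) :
    ∃ Q : Sylow 2 C, ∀ x ∈ Q, ∃ a : A, g (f a) = x := by
  have h1 : ((P : Subgroup A).map f).index = c * (P : Subgroup A).index := by
    have h2 := (P : Subgroup A).index_mul_card
    have h3 := ((P : Subgroup A).map f).index_mul_card
    have h4 : Nat.card ((P : Subgroup A).map f) = Nat.card P :=
      (Nat.card_congr ((P : Subgroup A).equivMapOfInjective f hf).toEquiv).symm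
    rw [h4, hcard, ← h2, ← mul_assoc] at h3
    exact Nat.eq_of_mul_eq_mul_right Nat.card_pos h3
  have h5 : ¬ 2 ∣ (((P : Subgroup A).map f).map g).index := by
    intro hd
    have h6 := hd.trans (Subgroup.index_map_dvd _ hg)
    rw [h1] at h6
    rcases (Nat.prime_two.dvd_mul).1 h6 with h7 | h7
    · exact (Nat.not_even_iff_odd.2 hc) (even_iff_two_dvd.2 h7)
    · exact P.not_dvd_index h7
  refine ⟨((P.isPGroup'.map f).map g).toSylow h5, fun x hx => ?_⟩
  obtain ⟨_, ⟨a, _, rfl⟩, rfl⟩ := hx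
  exact ⟨a, rfl⟩

/-- A quotient with an abelian normal subgroup and an abelian quotient is solvable. -/
theorem isSolvable_of_layers {A : Type*} [Group A] (I D : Subgroup A) [I.Normal]
    (h1 : ∀ φ ψ : A, φ * ψ * φ⁻¹ * ψ⁻¹ ∈ D) (h2 : ∀ φ ∈ D, ∀ ψ ∈ D, φ * ψ * φ⁻¹ * ψ⁻¹ ∈ I) :
    Group.IsSolvable (A ⧸ I) := by
  refine ⟨2, ?_⟩
  have hc1 : derivedSeries (A ⧸ I) 1 ≤ D.map (QuotientGroup.mk' I) := by
    rw [derivedSeries_succ, derivedSeries_zero, Subgroup.commutator_le]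
    intro x _ y _
    obtain ⟨φ, rfl⟩ := QuotientGroup.mk'_surjective I x
    obtain ⟨ψ, rfl⟩ := QuotientGroup.mk'_surjective I y
    exact ⟨_, h1 φ ψ, by simp [commutatorElement_def]⟩
  rw [derivedSeries_succ, eq_bot_iff, Subgroup.commutator_le]
  intro x hx y hy
  obtain ⟨φ, hφ, rfl⟩ := hc1 hx
  obtain ⟨ψ, hψ, rfl⟩ := hc1 hy
  rw [Subgroup.mem_bot, ← map_commutatorElement]
  exact (QuotientGroup.eq_one_iff _).2 (h2 φ hφ ψ hψ)

end Cfsg.Agent.H805.RV
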