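import Cfsg.Agent.H561.RV.AutCrit
import Cfsg.Agent.H966.PSpAut
import Cfsg.Agent.ClassicalGeometry.SympAutOddA
import Cfsg.Agent.H805.RV.Fld
import Cfsg.Agent.S0245

/-!
# `AutOdd` for the symplectic groups (helper805, for S4311 + S3851)

`autOdd_psp` : an automorphism of odd order of `PSp m F` (`F` odd, `m ≥ 2`) centralises a given Sylow `2`-subgroup after
multiplication with an inner automorphism.
-/

set_option autoImplicit false

namespace Cfsg.Agent.H805.RV.PSp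

open Cfsg Cfsg.Agent.H561.RV
open Cfsg.Agent.ClassicalGeometry.SympBasic Cfsg.Agent.ClassicalGeometry.SympAutSemi
  Cfsg.Agent.ClassicalGeometry.SympGamma Cfsg.Agent.H966.PSpAut

universe u

section semi

variable {F : Type u} [Field F] {m : ℕ}

/-- the field automorphism of a semisimilitude -/
def Fp (g : semiSim m F) (σ : F ≃+* F) : Prop := ∃ l : F, l ≠ 0 ∧ IsSemi g.1 σ l

theorem exists_Fp (g : semiSim m F) : ∃ σ, Fp g σ := g.2

theorem Fp.mul {g h : semiSim m F} {σ τ : F ≃+* F} (hg : Fp g σ) (hh : Fp h τ) : Fp (g * h) (σ * τ) := by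
  obtain ⟨l, hl, h1⟩ := hg
  obtain ⟨k, hk, h2⟩ := hh
  exact ⟨_, mul_ne_zero hl (by simpa using hk), h1.mul h2⟩

theorem Fp.inv {g : semiSim m F} {σ : F ≃+* F} (hg : Fp g σ) : Fp g⁻¹ σ⁻¹ := by
  obtain ⟨l, hl, h1⟩ := hg
  exact ⟨_, by simpa using hl, h1.inv hl⟩

theorem fp_one : Fp (1 : semiSim m F) 1 := ⟨1, one_ne_zero, H966.PSpField.isSemi_one⟩

theorem Fp.pow {g : semiSim m F} {σ : F ≃+* F} (hg : Fp g σ) (n : ℕ) : Fp (g ^ n) (σ ^ n) := by
  induction n with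
  | zero => exact fp_one
  | succ n ih => rw [pow_succ, pow_succ]; exact ih.mul hg

theorem mem_D {g : semiSim m F} (hg : Fp g 1) : Psi m F g ∈ inndiagPSp m F := by
  obtain ⟨l, hl, h⟩ := hg
  exact mem_inndiag.2 ⟨g, ⟨l, hl, h⟩, rfl⟩

theorem of_mem_D {β : MulAut (PSp m F)} (h : β ∈ inndiagPSp m F) : ∃ g : semiSim m F, Fp g 1 ∧ Psi m F g = β := by
  obtain ⟨g, ⟨l, hl, h1⟩, h2⟩ := mem_inndiag.1 h
  exact ⟨g, ⟨l, hl, h1⟩, h2⟩

/-- the standard field automorphism -/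
noncomputable def Th (m : ℕ) (F : Type u) [Field F] : (F ≃+* F) →* MulAut (PSp m F) :=
  (Psi m F).comp
    { toFun := fun σ => ⟨frobPerm m σ, σ, 1, one_ne_zero, isSemi_frobPerm σ⟩
      map_one' := rfl
      map_mul' := fun _ _ => rfl }

theorem Th_eq (σ : F ≃+* F) : ∃ g : semiSim m F, Fp g σ ∧ Psi m F g = Th m F σ :=
  ⟨⟨frobPerm m σ, σ, 1, one_ne_zero, isSemi_frobPerm σ⟩, ⟨1, one_ne_zero, isSemi_frobPerm σ⟩, rfl⟩

theorem Th_apply {σ : F ≃+* F} {s s' : Matrix.symplecticGroup (Fin m) F}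
    (h : (s' : Matrix (Fin m ⊕ Fin m) (Fin m ⊕ Fin m) F) = (s : Matrix (Fin m ⊕ Fin m) (Fin m ⊕ Fin m) F).map σ) :
    Th m F σ (QuotientGroup.mk s) = QuotientGroup.mk s' :=
  (eq_Psi_frob (σ := σ) (β := Th m F σ)).2 rfl s s' h

/-- a similitude with multiplier a square of `e` is inner modulo scalars -/
theorem inn_of_sq {h : Equiv.Perm (Fin m ⊕ Fin m → F)} {e : F} (he : e ≠ 0)
    (hh : IsSemi h (RingEquiv.refl F) (e * e)) (hmem : h ∈ semiSim m F) :
    Psi m F ⟨h, hmem⟩ ∈ Inn (PSp m F) := by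
  have h3 := (isSemi_scal (m := m) (Units.mk0 e he)⁻¹).mul hh
  obtain ⟨A, hA⟩ := exists_rho_eq (scal m F (Units.mk0 e he)⁻¹ * h) h3.1 h3.2.1 (by
    intro u v
    rw [h3.2.2]
    have : ((((Units.mk0 e he)⁻¹ : Fˣ) : F) * ((Units.mk0 e he)⁻¹ : Fˣ) * (RingEquiv.refl F) (e * e)) = 1 := by
      change (((Units.mk0 e he)⁻¹ : Fˣ) : F) * ((Units.mk0 e he)⁻¹ : Fˣ) * (e * e) = 1
      rw [Units.val_inv_eq_inv_val, Units.val_mk0]
      field_simp
    rw [this, one_mul]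
    rfl)
  have hs : scal m F (Units.mk0 e he) ∈ semiSim m F :=
    ⟨RingEquiv.refl F, _, mul_ne_zero (Units.ne_zero _) (Units.ne_zero _), isSemi_scal _⟩
  have hr : rho m F A ∈ semiSim m F := ⟨RingEquiv.refl F, 1, one_ne_zero, isSemi_rho A⟩
  refine ⟨QuotientGroup.mk A, ?_⟩
  rw [← Psi_rho A hr]
  have h4 : (⟨h, hmem⟩ : semiSim m F) = ⟨scal m F (Units.mk0 e he), hs⟩ * ⟨rho m F A, hr⟩ := by
    apply Subtype.ext
    change h = scal m F (Units.mk0 e he) * rho m F A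
    rw [hA, ← mul_assoc]
    ext1 v
    rw [Equiv.Perm.mul_apply, Equiv.Perm.mul_apply, scal_apply, scal_apply, smul_smul,
      ← Units.val_mul, mul_inv_cancel, Units.val_one, one_smul]
  rw [h4, map_mul, Psi_scal, one_mul]

theorem inn_le : Inn (PSp m F) ≤ inndiagPSp m F := by
  rintro _ ⟨g, rfl⟩
  induction g using QuotientGroup.induction_on with
  | H A =>
    have hr : rho m F A ∈ semiSim m F := ⟨RingEquiv.refl F, 1, one_ne_zero, isSemi_rho A⟩
    exact mem_inndiag.2 ⟨⟨rho m F A, hr⟩, ⟨1, one_ne_zero, isSemi_rho A⟩, Psi_rho A hr⟩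

theorem sq_mem_inn {δ : MulAut (PSp m F)} (h : δ ∈ inndiagPSp m F) : δ ^ 2 ^ 1 ∈ Inn (PSp m F) := by
  obtain ⟨g, ⟨l, hl, h1⟩, rfl⟩ := of_mem_D h
  have h2 := h1.mul h1
  rw [pow_one, pow_two, ← map_mul]
  exact inn_of_sq (h := g.1 * g.1) hl h2 (g * g).2

theorem comm_mem_inn {φ ψ : MulAut (PSp m F)} (hφ : φ ∈ inndiagPSp m F) (hψ : ψ ∈ inndiagPSp m F) :
    φ * ψ * φ⁻¹ * ψ⁻¹ ∈ Inn (PSp m F) := by
  obtain ⟨g, ⟨l, hl, h1⟩, rfl⟩ := of_mem_D hφ
  obtain ⟨h, ⟨k, hk, h2⟩, rfl⟩ := of_mem_D hψ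
  have h3 := ((h1.mul h2).mul (h1.inv hl)).mul (h2.inv hk)
  rw [← map_inv, ← map_inv, ← map_mul, ← map_mul, ← map_mul]
  refine inn_of_sq (h := g.1 * h.1 * g.1⁻¹ * h.1⁻¹) (e := 1) one_ne_zero ?_ (g * h * g⁻¹ * h⁻¹).2
  have h4 : l * k * l⁻¹ * k⁻¹ = 1 * 1 := by field_simp
  rw [← h4]
  exact h3

end semi

section fin

variable {F : Type u} [Field F] [Fintype F] {m : ℕ}

theorem exists_psi (hm : 2 ≤ m) (h2 : (2 : F) ≠ 0) (α : MulAut (PSp m F)) : ∃ g, Psi m F g = α := by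
  obtain ⟨g, hg⟩ := ClassicalGeometry.SympAutExists.exists_semi hm α
    (ClassicalGeometry.SympAutOddA.recog hm (Or.inr h2) α)
  exact ⟨g, hg⟩

theorem aut_comm (σ τ : F ≃+* F) : σ * τ = τ * σ := by
  have : IsCyclic (F ≃+* F) := Cfsg.Agent.LieRecognition.FieldSemilinear.isCyclic_ringAut F
  obtain ⟨γ, hγ⟩ := IsCyclic.exists_generator (α := F ≃+* F)
  obtain ⟨i, rfl⟩ := hγ σ
  obtain ⟨j, rfl⟩ := hγ τ
  show γ ^ i * γ ^ j = γ ^ j * γ ^ i
  rw [← zpow_add, ← zpow_add, add_comm]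

theorem comm_mem_D (hm : 2 ≤ m) (h2 : (2 : F) ≠ 0) (φ ψ : MulAut (PSp m F)) :
    φ * ψ * φ⁻¹ * ψ⁻¹ ∈ inndiagPSp m F := by
  obtain ⟨g, rfl⟩ := exists_psi hm h2 φ
  obtain ⟨h, rfl⟩ := exists_psi hm h2 ψ
  obtain ⟨σ, hσ⟩ := exists_Fp g
  obtain ⟨τ, hτ⟩ := exists_Fp h
  have h3 := ((hσ.mul hτ).mul hσ.inv).mul hτ.inv
  have h4 : σ * τ * σ⁻¹ * τ⁻¹ = 1 := by
    rw [aut_comm σ τ]; group
  rw [h4] at h3
  rw [← map_inv, ← map_inv, ← map_mul, ← map_mul, ← map_mul]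
  exact mem_D h3

/-- entrywise inclusion of the symplectic group over a subfield -/
def inc (m : ℕ) (K : Subfield F) : Matrix.symplecticGroup (Fin m) K →* Matrix.symplecticGroup (Fin m) F where
  toFun A := ⟨(A : Matrix (Fin m ⊕ Fin m) (Fin m ⊕ Fin m) K).map K.subtype, by
    have h1 := (SymplecticGroup.mem_iff).1 A.2
    rw [SymplecticGroup.mem_iff]
    have h2 := congrArg (fun M : Matrix (Fin m ⊕ Fin m) (Fin m ⊕ Fin m) K => M.map K.subtype) h1
    have hJ : (Matrix.J (Fin m) K).map K.subtype = Matrix.J (Fin m) F := by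
      ext i j
      rcases i with i | i <;> rcases j with j | j <;>
        simp [Matrix.J, Matrix.one_apply, apply_ite (fun x : K => (x : F))]
    simp only [Matrix.map_mul, Matrix.transpose_map, hJ] at h2
    exact h2⟩
  map_one' := by
    apply Subtype.ext
    show (1 : Matrix (Fin m ⊕ Fin m) (Fin m ⊕ Fin m) K).map K.subtype = 1
    exact Matrix.map_one _ (map_zero _) (map_one _)
  map_mul' A B := by
    apply Subtype.ext
    show ((A : Matrix (Fin m ⊕ Fin m) (Fin m ⊕ Fin m) K) * (B : Matrix (Fin m ⊕ Fin m) (Fin m ⊕ Fin m) K)).map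
      K.subtype = _
    exact Matrix.map_mul

theorem inc_injective (K : Subfield F) : Function.Injective (inc (F := F) m K) := by
  intro A B h
  have h1 := congrArg Subtype.val h
  apply Subtype.ext
  ext i j
  have h2 := congrFun (congrFun h1 i) j
  exact h2

theorem card_inc {K : Subfield F} {d : ℕ} (hd : Odd d) (hodd : Odd (Nat.card F)) (hc : Nat.card F = Nat.card K ^ d)
    (m : ℕ) : ∃ c, Odd c ∧ Nat.card (Matrix.symplecticGroup (Fin m) F) =
      c * Nat.card (Matrix.symplecticGroup (Fin m) K) := by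
  have := Fintype.ofFinite K
  have hK : Odd (Nat.card K) := by
    by_contra hne
    rw [Nat.not_odd_iff_even] at hne
    have : Even (Nat.card F) := by
      rw [hc]
      exact hne.pow_of_ne_zero hd.pos.ne'
    exact (Nat.not_even_iff_odd.2 hodd) this
  have h1 := S0245.result (F := F) rfl m
  have h2 := S0245.result (F := K) rfl m
  rw [← Nat.card_eq_fintype_card] at h1 h2
  obtain ⟨c, hcc, h3⟩ := exists_odd_prod (Finset.range m)
    (f := fun i => Nat.card F ^ (2 * (i + 1)) - 1) (g := fun i => Nat.card K ^ (2 * (i + 1)) - 1)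
    (fun i _ => by rw [hc]; exact exists_odd' (2 * (i + 1)) hK hd)
  refine ⟨Nat.card K ^ ((d - 1) * m ^ 2) * c, hK.pow.mul hcc, ?_⟩
  rw [h1, h2, h3]
  have h4 : Nat.card F ^ (m ^ 2) = Nat.card K ^ ((d - 1) * m ^ 2) * Nat.card K ^ (m ^ 2) := by
    rw [hc, ← pow_mul, ← pow_add]
    congr 1
    obtain ⟨e, he⟩ := Nat.exists_eq_succ_of_ne_zero hd.pos.ne'
    rw [he]
    simp only [Nat.succ_eq_add_one, Nat.add_sub_cancel]
    ring
  rw [h4]
  ring

end fin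

/-- **Symplectic groups.** -/
theorem autOdd_psp {F : Type u} [Field F] [Fintype F] (hodd : Odd (Fintype.card F)) {m : ℕ} (hm : 2 ≤ m) :
    AutOdd (PSp m F) := by
  have hodd' : Odd (Nat.card F) := by rwa [Nat.card_eq_fintype_card]
  have h2 : (2 : F) ≠ 0 := by
    intro h
    have h3 : ringChar F = 2 := by
      have h4 : ringChar F ∣ 2 := (ringChar.spec F 2).1 (by exact_mod_cast h)
      rcases (Nat.dvd_prime Nat.prime_two).1 h4 with h5 | h5
      · have := (ringChar.spec F 1).2 (by rw [h5])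
        simp at this
      · exact h5
    have h6 := FiniteField.even_card_of_char_two h3
    have h7 : Fintype.card F % 2 = 1 := Nat.odd_iff.1 hodd
    omega
  obtain ⟨σ₀, K, a, hd, hK, hcard, hpow, hfix⟩ := exists_fix F
  have : Finite (Matrix.symplecticGroup (Fin m) F) := inferInstance
  have := Fintype.ofFinite K
  have : Finite (Matrix.symplecticGroup (Fin m) K) := inferInstance
  obtain ⟨c, hc, hcc⟩ := card_inc hd hodd' hcard m
  have hns : (inndiagPSp m F).Normal := inndiag_normal hm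
  obtain ⟨P₀, hP₀⟩ := image_sylow (inc m K) (inc_injective K) hc hcc
    (QuotientGroup.mk' (Subgroup.center (Matrix.symplecticGroup (Fin m) F))) (QuotientGroup.mk'_surjective _)
    (default : Sylow 2 (Matrix.symplecticGroup (Fin m) K))
  refine autOdd_of_layers ?_ P₀ ((Subgroup.zpowers σ₀).map (Th m F)) (inndiagPSp m F) ?_ inn_le
    (comm_mem_D hm h2) ?_ (Or.inl fun δ hδ => ⟨1, sq_mem_inn hδ⟩)
  · exact isSolvable_of_layers (Inn (PSp m F)) (inndiagPSp m F) (comm_mem_D hm h2)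
      fun φ hφ ψ hψ => comm_mem_inn hφ hψ
  · rintro _ ⟨σ, hσ, rfl⟩ x hx
    obtain ⟨A, rfl⟩ := hP₀ x hx
    refine Th_apply ?_
    ext i j
    show ((A : Matrix (Fin m ⊕ Fin m) (Fin m ⊕ Fin m) K) i j : F) =
      σ ((A : Matrix (Fin m ⊕ Fin m) (Fin m ⊕ Fin m) K) i j : F)
    exact (hfix σ hσ _ ((A : Matrix (Fin m ⊕ Fin m) (Fin m ⊕ Fin m) K) i j).2).symm
  · intro φ
    obtain ⟨g, rfl⟩ := exists_psi hm h2 φ
    obtain ⟨σ, hσ⟩ := exists_Fp g
    refine ⟨a, ?_⟩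
    obtain ⟨g', hg', h'⟩ := Th_eq (m := m) (σ ^ 2 ^ a)
    have h3 : (Psi m F g) ^ 2 ^ a = Th m F (σ ^ 2 ^ a) * Psi m F (g'⁻¹ * g ^ 2 ^ a) := by
      rw [map_mul, map_inv, h', mul_inv_cancel_left, map_pow]
    rw [h3]
    refine Subgroup.mul_mem _ (Subgroup.mem_sup_left ⟨_, hpow σ, rfl⟩) (Subgroup.mem_sup_right ?_)
    have h4 := hg'.inv.mul (hσ.pow (2 ^ a))
    rw [inv_mul_cancel] at h4
    exact mem_D h4

end Cfsg.Agent.H805.RV.PSp
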